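/- Two quadratic groups of order 9 in a group with a strongly 3-embedded subgroup (for S5227). -/
import Cfsg.Agent.FUS.StrongPEmb
set_option autoImplicit false

namespace CL.C1J
open Cfsg CL.Fus Subgroup

abbrev F : Type := ZMod 3

variable {G : Type*} [Group G]

/-- `H` is strongly 3-embedded in `A` (or equal to `A`), elementwise. -/
structure SE (A H : Subgroup G) : Prop where
  le : H ≤ A
  mem : ∀ g ∈ A, ∀ x ∈ H, x ≠ 1 → x ^ 3 = 1 → g * x * g⁻¹ ∈ H → g ∈ H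

theorem se_of_relSPE [Finite G] {T A H : Subgroup G} (hT : SylIn 3 T A) (h : RelSPE ⊥ T A H) : SE A H := by
  classical
  haveI : Fact (Nat.Prime 3) := ⟨by norm_num⟩
  have hTH := h.le hT.le
  have hS : SylIn 3 T H := hT.of_le hTH h.2.1.le
  refine ⟨h.2.1.le, fun g hg x hx h1 h3 hc => ?_⟩
  have pz : ∀ y : G, y ^ 3 = 1 → IsPGroup 3 (zpowers y) := fun y hy =>
    IsPGroup.of_card (n := if y = 1 then 0 else 1) (by
      rw [Nat.card_zpowers]
      split_ifs with e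
      · simp [e]
      · rw [pow_one]; exact orderOf_eq_prime hy e)
  obtain ⟨b, hb, e⟩ := hS.exists_conj_le ((zpowers_le (g := x)).2 hx) (pz x h3)
  obtain ⟨c, hc', e'⟩ := hS.exists_conj_le ((zpowers_le (g := g * x * g⁻¹)).2 hc) (pz _ (by rw [conj_pow, h3]; simp))
  have := h.mem_of_conj_mem hT (by rw [Subgroup.normalizer_eq_top]; exact le_top) (g := c * g * b⁻¹) (x := b * x * b⁻¹)
    (A.mul_mem (A.mul_mem (h.2.1.le hc') hg) (A.inv_mem (h.2.1.le hb))) (e x (mem_zpowers x))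
    (fun e1 => h1 (by simpa using e1))
    (by have := e' _ (mem_zpowers _); convert this using 1; simp only [cj]; group)
  simpa [mul_assoc] using H.mul_mem (H.mul_mem (H.inv_mem hc') this) hb

theorem exists_three [Finite G] {P : Subgroup G} (hP : IsPGroup 3 P) {x : G} (hx : x ∈ P) (h1 : x ≠ 1) :
    ∃ z ∈ P, z ≠ 1 ∧ z ^ 3 = 1 ∧ ∀ y ∈ P, y * z = z * y := by
  haveI : Fact (Nat.Prime 3) := ⟨by norm_num⟩
  haveI : Nontrivial P := ⟨⟨⟨x, hx⟩, 1, fun e => h1 (congrArg Subtype.val e)⟩⟩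
  haveI := hP.center_nontrivial
  obtain ⟨n, hn, e⟩ := (hP.to_subgroup (center P)).nontrivial_iff_card.1 inferInstance
  obtain ⟨z, hz⟩ := exists_prime_orderOf_dvd_card' (G := center P) 3 (e ▸ dvd_pow_self 3 hn.ne')
  refine ⟨z.1.1, z.1.2, fun e1 => ?_, ?_, fun y hy => congrArg Subtype.val (mem_center_iff.1 z.2 ⟨y, hy⟩)⟩
  · have : z = 1 := Subtype.ext (Subtype.ext e1)
    simp [this] at hz
  · have := pow_orderOf_eq_one z
    rw [hz] at this
    exact congrArg (fun t : center P => t.1.1) this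

theorem SE.le_of_pgroup [Finite G] {A H P : Subgroup G} (h : SE A H) (hP : IsPGroup 3 P) (hA : P ≤ A) {x : G}
    (hx : x ∈ P) (hH : x ∈ H) (h1 : x ≠ 1) (h3 : x ^ 3 = 1) : P ≤ H := by
  obtain ⟨z, hz, z1, z3, hc⟩ := exists_three hP hx h1
  have hzH : z ∈ H := h.mem z (hA hz) x hH h1 h3 (by rw [← hc x hx]; simpa using hH)
  exact fun y hy => h.mem y (hA hy) z hzH z1 z3 (by rw [hc y hy]; simpa using hzH)

variable {V : Type*} [AddCommGroup V] [Module F V] (ρ : G →* Module.End F V)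

theorem inv_mem_of_mul [Finite G] {s : Set G} (h1 : (1 : G) ∈ s) (hm : ∀ a ∈ s, ∀ b ∈ s, a * b ∈ s) {a : G} (ha : a ∈ s) :
    a⁻¹ ∈ s := by
  have : ∀ n : ℕ, a ^ n ∈ s := fun n => by
    induction n with
    | zero => simpa using h1
    | succ n ih => rw [pow_succ]; exact hm _ ih _ ha
  have e : a⁻¹ = a ^ (orderOf a - 1) := by
    rw [inv_eq_iff_mul_eq_one, ← pow_succ', Nat.sub_add_cancel (orderOf_pos a), pow_orderOf_eq_one]
  exact e ▸ this _

theorem mem_of_sub {W W' : Submodule F V} (h : W' ≤ W) {v w : V} (hv : v ∈ W) (e : w - v ∈ W') : w ∈ W := by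
  simpa using W.add_mem (h e) hv

/-- the elements acting trivially on the factors of a flag and on `p` -/
def St [Finite G] (Fl : ℕ → Submodule F V) (hF : ∀ i, Fl (i + 1) ≤ Fl i) (p : Submodule F V) : Subgroup G :=
  have hm : ∀ a ∈ {x : G | (∀ i, ∀ v ∈ Fl i, ρ x v - v ∈ Fl (i + 1)) ∧ ∀ v ∈ p, ρ x v = v},
      ∀ b ∈ {x : G | (∀ i, ∀ v ∈ Fl i, ρ x v - v ∈ Fl (i + 1)) ∧ ∀ v ∈ p, ρ x v = v},
      a * b ∈ {x : G | (∀ i, ∀ v ∈ Fl i, ρ x v - v ∈ Fl (i + 1)) ∧ ∀ v ∈ p, ρ x v = v} := fun a ha b hb =>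
    ⟨fun i v hv => by
      have := (Fl (i + 1)).add_mem (ha.1 i _ (mem_of_sub (hF i) hv (hb.1 i v hv))) (hb.1 i v hv)
      simpa using this, fun v hv => by rw [map_mul, Module.End.mul_apply, hb.2 v hv, ha.2 v hv]⟩
  have h1 : (1 : G) ∈ {x : G | (∀ i, ∀ v ∈ Fl i, ρ x v - v ∈ Fl (i + 1)) ∧ ∀ v ∈ p, ρ x v = v} :=
    ⟨fun i v _ => by simp, fun v _ => by simp⟩
  { carrier := {x | (∀ i, ∀ v ∈ Fl i, ρ x v - v ∈ Fl (i + 1)) ∧ ∀ v ∈ p, ρ x v = v}
    one_mem' := h1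
    mul_mem' := fun ha hb => hm _ ha _ hb
    inv_mem' := fun ha => inv_mem_of_mul h1 hm ha }

theorem mem_St [Finite G] {Fl : ℕ → Submodule F V} {hF : ∀ i, Fl (i + 1) ≤ Fl i} {p : Submodule F V} {x : G} :
    x ∈ St ρ Fl hF p ↔ (∀ i, ∀ v ∈ Fl i, ρ x v - v ∈ Fl (i + 1)) ∧ ∀ v ∈ p, ρ x v = v := Iff.rfl

theorem cube (N : Module.End F V) : (N + 1) ^ 3 = N ^ 3 + 1 := by
  have : (3 : F) • (N * N + N) = 0 := by rw [show (3 : F) = 0 from rfl, zero_smul]
  have e : (N + 1) ^ 3 = N ^ 3 + 1 + (3 : F) • (N * N + N) := by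
    rw [show (3 : F) = 1 + 1 + 1 by norm_num, add_smul, add_smul, one_smul]; noncomm_ring
  rw [e, this, add_zero]

theorem St_pgroup [Finite G] (hρ : Function.Injective ρ) {Fl : ℕ → Submodule F V} {hF : ∀ i, Fl (i + 1) ≤ Fl i}
    {p : Submodule F V} (h0 : Fl 0 = ⊤) (h8 : Fl 8 ≤ p) : IsPGroup 3 (St ρ Fl hF p) := by
  rintro ⟨x, hx⟩
  refine ⟨2, Subtype.ext (hρ ?_)⟩
  have h1 : ∀ n v, ((ρ x - 1) ^ n) v ∈ Fl n := fun n v => by
    induction n with
    | zero => simp [h0]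
    | succ n ih => rw [pow_succ', Module.End.mul_apply]; exact hx.1 n _ ih
  have h2 : (ρ x - 1) ^ 9 = 0 := LinearMap.ext fun v => by
    rw [pow_succ', Module.End.mul_apply, LinearMap.sub_apply, hx.2 _ (h8 (h1 8 v))]; simp
  have h3 : ρ x ^ 9 = 1 := by
    rw [show ρ x = (ρ x - 1) + 1 by simp, show 9 = 3 * 3 from rfl, pow_mul, cube, cube, ← pow_mul, h2, zero_add]
  simpa using h3

/-- `α` as a quadruple -/
def ap (m : F × F × F × F) (x : F × F) : F × F := (m.1 * x.1 + m.2.1 * x.2, m.2.2.1 * x.1 + m.2.2.2 * x.2)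

def evF (a b : F × F × F × F) : List Bool → (F × F) × (F × F) → (F × F) × (F × F)
  | [], z => z
  | l :: w, z => let y := evF a b w z; bif l then (y.1 + ap a y.2, y.2) else (y.1, y.2 + ap b y.1)

def w1 : List Bool := [true, true, false, true, false, true, true, false, true, false]
def w2 : List Bool := [true, true, false, true, false, false, true, true, false, true, false, false]
def bs : List ((F × F) × (F × F)) := [((1, 0), (0, 0)), ((0, 1), (0, 0)), ((0, 0), (1, 0)), ((0, 0), (0, 1))]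

def nilB (a b : F × F × F × F) : Bool :=
  [((1 : F), (0 : F)), (0, 1)].all fun x => ap a (ap b (ap a (ap b x))) == 0 && ap b (ap a (ap b (ap a x))) == 0

def negB (a b : F × F × F × F) (w : List Bool) : Bool := bs.all fun z => evF a b w z == -z

theorem fin_chk : ∀ a₁ a₂ a₃ a₄ b₁ b₂ b₃ b₄ : F, a₁ * b₁ + a₂ * b₃ + a₃ * b₂ + a₄ * b₄ = 0 →
    (nilB (a₁, a₂, a₃, a₄) (b₁, b₂, b₃, b₄) || (negB (a₁, a₂, a₃, a₄) (b₁, b₂, b₃, b₄) w2 ||
      negB (a₁, a₂, a₃, a₄) (b₁, b₂, b₃, b₄) w1)) = true := by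
  decide +kernel

end CL.C1J
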