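/- Counting lemmas for the tables of `JT` (for S5227). -/
import Cfsg.Agent.FUS.C1J.JT
set_option autoImplicit false

namespace CL.C1J
open CL.K Finset

theorem digit (f : ℕ → ℕ) (hf : ∀ i, f i < 1024) (T t : ℕ) (ht : t < T) :
    fld 10 1023 (∑ i ∈ range T, f i * 1024 ^ i) t = f t := by
  rw [fld_eq, Nat.shiftRight_eq_div_pow, show 1023 = 2 ^ 10 - 1 from rfl, Nat.and_two_pow_sub_one_eq_mod, pow_mul]
  induction t generalizing f T with
  | zero =>
    obtain ⟨T, rfl⟩ := Nat.exists_eq_succ_of_ne_zero ht.ne'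
    rw [sum_range_succ']
    simp only [pow_succ, ← mul_assoc, ← sum_mul]
    have := hf 0
    omega
  | succ t ih =>
    obtain ⟨T, rfl⟩ := Nat.exists_eq_succ_of_ne_zero (Nat.ne_zero_of_lt ht)
    rw [sum_range_succ', pow_succ', ← Nat.div_div_eq_div_mul, ← ih (fun i => f (i + 1)) (fun i => hf _) T (by omega)]
    congr 2
    simp only [pow_succ, ← mul_assoc, ← sum_mul]
    have := hf 0
    omega

theorem lb_lt {n : ℕ} (hn : n < 729) : lb n < 23 := by
  have := allLt_iff.1 chk1 n hn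
  simp only [Bool.and_eq_true, Nat.blt_eq] at this
  exact this.1

theorem fib {s : Finset ℕ} {t : ℕ → ℕ} {T : ℕ} (h : ∀ n ∈ s, t n < T) (w : ℕ → ℕ) :
    ∑ n ∈ s, w (t n) = ∑ j ∈ range T, #{n ∈ s | t n = j} * w j := by
  rw [← sum_fiberwise_of_maps_to (t := range T) (g := t) fun n hn => mem_range.2 (h n hn)]
  refine sum_congr rfl fun j _ => ?_
  rw [sum_congr rfl fun n hn => by rw [(mem_filter.1 hn).2], sum_const, smul_eq_mul]

theorem Nc_eq (S r : ℕ) : Nc S r = NT (Hk r) S := by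
  have ht : ∀ n ∈ range 729, 23 * lb n + lb (ad n r) < 23 * 23 := fun n hn => by
    have := lb_lt (mem_range.1 hn)
    have := lb_lt (n := ad n r) (pk6_lt ..)
    omega
  have e1 : Nc S r = ∑ n ∈ range 729, (fun t => bit S (t / 23) * bit S (t % 23)) (23 * lb n + lb (ad n r)) := by
    rw [Nc, sumLt_eq]
    refine sum_congr rfl fun n _ => ?_
    have := lb_lt (n := ad n r) (pk6_lt ..)
    simp only
    congr 2 <;> omega
  rw [e1.trans (fib ht fun t => bit S (t / 23) * bit S (t % 23)), ← sumLt2_eq, NT, Hk, sumLt_eq _ 729, fib ht (fun t => 1024 ^ t), sumLt2, sumLt_eq, sumLt_eq]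
  refine sum_congr rfl fun i hi => ?_
  have hi := mem_range.1 hi
  have k : ∀ j < 23, fld 10 1023 (∑ j ∈ range (23 * 23), #{n ∈ range 729 | 23 * lb n + lb (ad n r) = j} * 1024 ^ j)
      (23 * i + j) = #{n ∈ range 729 | 23 * lb n + lb (ad n r) = 23 * i + j} := fun j hj =>
    digit _ (fun _ => (card_filter_le _ _).trans_lt (by simp)) _ _ (by omega)
  have e : ∀ j < 23, (23 * i + j) / 23 = i ∧ (23 * i + j) % 23 = j := fun j hj => by omega
  rw [sumLt_eq, sumLt_eq]
  cases h : S.testBit i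
  · exact sum_eq_zero fun j hj => by
      simp only [Nat.add_eq, Nat.mul_eq, e j (mem_range.1 hj), bit_eq, h]; simp
  · refine sum_congr rfl fun j hj => ?_
    simp only [Nat.add_eq, Nat.mul_eq, e j (mem_range.1 hj), bit_eq, h, k j (mem_range.1 hj)]
    cases S.testBit j <;> simp

theorem ncard_eq (X : Set W) (f : ℕ → ℕ) (h : ∀ n < 729, (D n ∈ X ∧ f n = 1) ∨ (D n ∉ X ∧ f n = 0)) :
    X.ncard = sumLt f 729 := by
  classical
  have e : X = D '' ((range 729).filter fun n => D n ∈ X : Finset ℕ) := by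
    ext v
    obtain ⟨n, hn, rfl⟩ := D_surj v
    exact ⟨fun h => ⟨n, by simp [hn, h], rfl⟩, fun ⟨m, hm, e⟩ => e ▸ (by simpa using hm : _ ∧ _).2⟩
  rw [e, Set.ncard_image_of_injOn fun n hn m hm => D_inj (by simpa using hn : _ ∧ _).1 (by simpa using hm : _ ∧ _).1,
    Set.ncard_coe_finset, sumLt_eq]
  exact card_filter_range_eq_sum _ _ _ fun n hn => by rcases h n hn with h | h <;> simp [h]

/-- `S` is the code of `X` -/
def Cd (X : Set W) (S : ℕ) : Prop := S < 2 ^ 22 ∧ ∀ n < 729, D n ∈ X ↔ S.testBit (lb n) = true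

noncomputable def NN (X : Set W) (v : W) : ℕ := {x | x ∈ X ∧ x + v ∈ X}.ncard

theorem Cd.NN_eq {X : Set W} {S : ℕ} (h : Cd X S) (r : ℕ) : NN X (D r) = Nc S r :=
  ncard_eq _ _ fun n hn => by
    rw [Set.mem_setOf_eq, ← D_ad, h.2 n hn, h.2 (ad n r) (pk6_lt ..), bit_eq, bit_eq]
    cases S.testBit (lb n) <;> cases S.testBit (lb (ad n r)) <;> simp

theorem NN_map {X : Set W} {φ : W →+ W} (hb : Function.Bijective φ) (h : ∀ v, φ v ∈ X ↔ v ∈ X) (v : W) :
    NN X (φ v) = NN X v := by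
  rw [NN, NN, ← Set.ncard_image_of_injective {x | x ∈ X ∧ x + v ∈ X} hb.1]
  congr 1
  ext w
  obtain ⟨x, rfl⟩ := hb.2 w
  rw [hb.1.mem_set_image, Set.mem_setOf_eq, Set.mem_setOf_eq, ← map_add, h, h]

theorem sz_hi : ∀ i < 11, sz (11 + i) = 54 := by decide +kernel

theorem Cd.card {X : Set W} {S : ℕ} (h : Cd X S) : X.ncard = wt (S % 2048) 11 + 54 * pc12 (S / 2048) := by
  have hS := h.1
  rw [ncard_eq X (fun n => bit S (lb n)) fun n hn => by
    rw [h.2 n hn, bit_eq]; cases S.testBit (lb n) <;> simp, sumLt_eq, fib fun n hn => lb_lt (mem_range.1 hn),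
    sum_congr rfl (g := fun j => bit S j * sz j) fun j hj => by
      have := Nat.eq_of_beq_eq_true (allLt_iff.1 chk3 j (mem_range.1 hj))
      rw [mul_comm, ← this, sumLt_eq, card_filter_range_eq_sum _ _ (fun n => ind (lb n) j) fun n _ => ind_eq _ _],
    pc12_eq (by omega), cnt_eq_sum, wt, sumLt_eq, show 23 = 11 + 12 from rfl, sum_range_add, mul_sum]
  congr 1
  · refine sum_congr rfl fun i hi => ?_
    rw [bit_eq, bit_eq, show 2048 = 2 ^ 11 from rfl, Nat.testBit_mod_two_pow]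
    simp [mem_range.1 hi]
  · refine sum_congr rfl fun i hi => ?_
    rw [bit_eq, bit_eq, show 2048 = 2 ^ 11 from rfl, Nat.testBit_div_two_pow, add_comm i]
    by_cases e : i = 11
    · subst e
      rw [Nat.testBit_lt_two_pow hS]; simp
    · rw [sz_hi i (by have := mem_range.1 hi; omega), mul_comm]

theorem chk7 : allLt2 (fun x => force x fun x => (!(x.testBit 0) || Nat.beq (wt x 11 % 3) 2) && Nat.ble (pc12 x) 11) 32 64 = true := by
  decide +kernel

theorem chk8 : ∀ i < 23, rep i < 729 ∧ lb (rep i) = i := by decide +kernel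

theorem rep0 : rep 0 = 1 := by decide +kernel

theorem getD_map_range {f : ℕ → ℕ} {n k : ℕ} (hk : k < n) : ((List.range n).map f).getD k 0 = f k := by
  simp [List.getD_eq_getElem?_getD, hk]

attribute [local irreducible] lb rep Nc NT Hk wt pc12 in
/-- the final count -/
theorem final {X Y : Set W} {S T : ℕ} (hX : Cd X S) (hY : Cd Y T) (h1 : D 1 ∈ Y) (hlt : Y ⊂ X) (hd : Y.ncard ∣ X.ncard)
    (hr : ∀ n < 729, lb n < 11 → D n ∈ X → D n ∈ Y)
    (ht : ∀ v ∈ X, ∃ φ : W →+ W, Function.Bijective φ ∧ (∀ w, φ w ∈ X ↔ w ∈ X) ∧ φ (D 1) = v) : False := by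
  have hS := hX.1
  have hT := hY.1
  have e : T % 2048 = S % 2048 := Nat.eq_of_testBit_eq fun i => by
    rw [show 2048 = 2 ^ 11 from rfl, Nat.testBit_mod_two_pow, Nat.testBit_mod_two_pow]
    by_cases hi : i < 11
    · obtain ⟨a, b⟩ := chk8 i (by omega)
      have a1 := hX.2 _ a
      have a2 := hY.2 _ a
      rw [b] at a1 a2
      rw [Bool.eq_iff_iff]
      simp only [hi, decide_true, Bool.true_and, ← a1, ← a2]
      exact ⟨fun h => hlt.1 h, hr _ a (by omega)⟩
    · simp [hi]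
  have b0 : (S % 2048).testBit 0 = true := by
    rw [← e, show 2048 = 2 ^ 11 from rfl, Nat.testBit_mod_two_pow]
    simpa [show lb 1 = 0 by decide +kernel] using (hY.2 1 (by norm_num)).1 h1
  have c1 := allLt2_iff.1 chk7 (S % 2048) (by omega)
  have c2 := allLt2_iff.1 chk7 (S / 2048) (by omega)
  simp only [force_eq, b0, Bool.not_true, Bool.false_or, Bool.and_eq_true, Nat.ble_eq, Nat.beq_eq] at c1 c2
  have lt := Set.ncard_lt_ncard hlt
  rw [hX.card, hY.card, e] at hd lt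
  have c5 := allLt2_iff.1 ((forceL_eq _ _).symm.trans chk5) (S % 2048) (by omega)
  simp only [force_eq, b0, Bool.not_true, Bool.false_or, Bool.or_eq_true, Nat.blt_eq] at c5
  set w := wt (S % 2048) 11
  have d1 : w + 54 * pc12 (T / 2048) ∣ 27 * (2 * (pc12 (S / 2048) - pc12 (T / 2048))) := by
    have := (Nat.dvd_sub hd (dvd_refl _))
    convert this using 1; omega
  have cp : (w + 54 * pc12 (T / 2048)).Coprime 27 :=
    Nat.Coprime.pow_right 3 (((Nat.Prime.coprime_iff_not_dvd Nat.prime_three).2 (by omega)).symm)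
  have d2 := Nat.le_of_dvd (by omega) (cp.dvd_of_dvd_mul_left d1)
  have p0 : pc12 (T / 2048) = 0 := by omega
  rw [p0, mul_zero, add_zero] at hd lt
  have c6 := allLt2_iff.1 (c5.resolve_left (by omega)) (S / 2048) (by omega)
  rw [Nat.mod_add_div, Nat.mod_eq_zero_of_dvd ((Nat.dvd_add_right (dvd_refl w)).1 hd)] at c6
  have y0 : S / 2048 ≠ 0 := fun e => by rw [e] at lt; exact absurd lt (by simp [show pc12 0 = 0 by decide +kernel])
  simp only [Bool.or_eq_true, Nat.beq_eq, y0, false_or, ok, force_eq, anyLt_iff, Bool.and_eq_true, Nat.beq_refl,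
    Bool.not_true, Bool.false_eq_true] at c6
  rcases c6 with ⟨k, hk, b, ne⟩ | c6
  · obtain ⟨a, a'⟩ := chk8 k (by omega)
    obtain ⟨φ, f1, f2, f3⟩ := ht _ ((hX.2 (rep k) a).2 (a'.symm ▸ b))
    have := NN_map f1 f2 (D 1)
    rw [f3, hX.NN_eq, hX.NN_eq, Nc_eq, Nc_eq] at this
    rw [getD_map_range hk, getD_map_range (by norm_num), rep0, this] at ne
    simp at ne
  · obtain ⟨r, n, hr, hn, hp⟩ : ∃ r n, r < 729 ∧ n < 729 ∧ (S, r, n) ∈ [(65537, 270, 389), (131073, 271, 387), (262145, 272, 388)] := by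
      rcases c6 with (rfl | rfl) | rfl
      exacts [⟨270, 389, by simp⟩, ⟨271, 387, by simp⟩, ⟨272, 388, by simp⟩]
    have := chk6 _ hp
    simp only [Bool.and_eq_true, force_eq, Nat.beq_eq, allLt_iff] at this
    obtain ⟨φ, f1, f2, f3⟩ := ht _ ((hX.2 _ hr).2 this.1.1.2)
    obtain ⟨x, hx⟩ := f1.2 (D n)
    obtain ⟨m, hm, rfl⟩ := D_surj x
    have e1 := NN_map f1 f2 (D m + D 1)
    rw [map_add, hx, f3, ← D_ad, ← D_ad, hX.NN_eq, hX.NN_eq, this.2] at e1
    have e2 := this.1.1.1 m hm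
    simp [← e1, (hX.2 m hm).1 ((f2 _).1 (hx ▸ (hX.2 n hn).2 this.1.2))] at e2

end CL.C1J
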