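/- The quadratic pair lemma (for S5227). -/
import Cfsg.Agent.FUS.C1J.QP
import Cfsg.Agent.Eqns.CL_C1J_evF
set_option autoImplicit false

namespace CL.C1J
open Cfsg CL.Fus Subgroup

variable {G : Type*} [Group G] {V : Type*} [AddCommGroup V] [Module F V]

/-- `u` is a family of elements of order 3 of `H`, trivial on `p`, with `[V, u s] ≤ Y = ι(F²) + p`, `[Y, u s] ≤ p`,
and `u s - 1` linear in `s` modulo `p`. -/
structure QD (ρ : G →* Module.End F V) (H : Subgroup G) (u : F × F → G) (p : Submodule F V) (ι : F × F →ₗ[F] V)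
    (π : V →ₗ[F] F × F) : Prop where
  mem : ∀ s, u s ∈ H
  ne : ∀ s, s ≠ 0 → u s ≠ 1
  cube : ∀ s, u s ^ 3 = 1
  fix : ∀ s, ∀ v ∈ p, ρ (u s) v = v
  im : ∀ s v, ρ (u s) v - v - ι (π (ρ (u s) v - v)) ∈ p
  sq : ∀ s x, ρ (u s) (ι x) - ι x ∈ p
  lin : ∀ s v, π (ρ (u s) v - v) = s.1 • π (ρ (u (1, 0)) v - v) + s.2 • π (ρ (u (0, 1)) v - v)

def qd (f : F × F →ₗ[F] F × F) : F × F × F × F := ((f (1, 0)).1, (f (0, 1)).1, (f (1, 0)).2, (f (0, 1)).2)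

theorem ap_qd (f : F × F →ₗ[F] F × F) (x : F × F) : ap (qd f) x = f x := by
  have : x = x.1 • ((1 : F), (0 : F)) + x.2 • ((0 : F), (1 : F)) := by simp
  conv_rhs => rw [this, map_add, map_smul, map_smul]
  ext <;> simp [ap, qd, mul_comm]

theorem exists_t (c d : F) : ∃ t : F × F, t ≠ 0 ∧ t.1 * c + t.2 * d = 0 := by
  revert c d; decide

def evG (a b : G) : List Bool → G
  | [] => 1
  | l :: w => (bif l then a else b) * evG a b w

theorem evG_mem {K : Subgroup G} {a b : G} (ha : a ∈ K) (hb : b ∈ K) (w : List Bool) : evG a b w ∈ K := by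
  induction w with
  | nil => exact K.one_mem
  | cons l w ih => cases l; exacts [K.mul_mem hb ih, K.mul_mem ha ih]

/-- the flags -/
def AB (α β : F × F →ₗ[F] F × F) : ℕ → Submodule F (F × F) × Submodule F (F × F)
  | 0 => (⊤, ⊤)
  | k + 1 => ((AB α β k).2.map α, (AB α β k).1.map β)

theorem AB_anti (α β : F × F →ₗ[F] F × F) (k : ℕ) :
    (AB α β (k + 1)).1 ≤ (AB α β k).1 ∧ (AB α β (k + 1)).2 ≤ (AB α β k).2 := by
  induction k with
  | zero => exact ⟨le_top, le_top⟩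
  | succ k ih => exact ⟨Submodule.map_mono ih.2, Submodule.map_mono ih.1⟩

def Fl (α β : F × F →ₗ[F] F × F) (ι κ : F × F →ₗ[F] V) (p : Submodule F V) : ℕ → Submodule F V
  | 0 => ⊤
  | k + 1 => (AB α β k).1.map ι ⊔ (AB α β k).2.map κ ⊔ p

theorem mem_Fl {α β : F × F →ₗ[F] F × F} {ι κ : F × F →ₗ[F] V} {p : Submodule F V} {k : ℕ} {v : V} :
    v ∈ Fl α β ι κ p (k + 1) ↔ ∃ x ∈ (AB α β k).1, ∃ y ∈ (AB α β k).2, v - (ι x + κ y) ∈ p := by
  simp only [Fl, Submodule.mem_sup, Submodule.mem_map]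
  constructor
  · rintro ⟨_, ⟨_, ⟨x, hx, rfl⟩, _, ⟨y, hy, rfl⟩, rfl⟩, c, hc, rfl⟩
    exact ⟨x, hx, y, hy, by simpa using hc⟩
  · rintro ⟨x, hx, y, hy, h⟩
    exact ⟨_, ⟨_, ⟨x, hx, rfl⟩, _, ⟨y, hy, rfl⟩, rfl⟩, _, h, by simp⟩

theorem Fl_anti (α β : F × F →ₗ[F] F × F) (ι κ : F × F →ₗ[F] V) (p : Submodule F V) (k : ℕ) :
    Fl α β ι κ p (k + 1) ≤ Fl α β ι κ p k := by
  cases k with
  | zero => exact le_top
  | succ k => exact sup_le_sup_right (sup_le_sup (Submodule.map_mono (AB_anti α β k).1)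
      (Submodule.map_mono (AB_anti α β k).2)) _

/-- abstract pair -/
structure Pr (ρ : G →* Module.End F V) (p : Submodule F V) (ι κ : F × F →ₗ[F] V) (α : F × F →ₗ[F] F × F) (a : G) : Prop where
  fix : ∀ v ∈ p, ρ a v = v
  im : ∀ v, ∃ x, ρ a v - v - ι x ∈ p
  sq : ∀ x, ρ a (ι x) - ι x ∈ p
  oth : ∀ y, ρ a (κ y) - κ y - ι (α y) ∈ p

variable {ρ : G →* Module.End F V} {p : Submodule F V} {ι κ : F × F →ₗ[F] V} {α β : F × F →ₗ[F] F × F} {a b : G}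

theorem Pr.step (h : Pr ρ p ι κ α a) {v : V} {x y : F × F} (hv : v - (ι x + κ y) ∈ p) :
    ρ a v - v - ι (α y) ∈ p := by
  have e : ρ a v - v - ι (α y) = (ρ a (v - (ι x + κ y)) - (v - (ι x + κ y))) + (ρ a (ι x) - ι x) +
      (ρ a (κ y) - κ y - ι (α y)) := by simp only [map_sub, map_add]; abel
  rw [e, h.fix _ hv, sub_self, zero_add]
  exact p.add_mem (h.sq x) (h.oth y)

theorem Pr.mem_St [Finite G] (h : Pr ρ p ι κ α a) : a ∈ St ρ (Fl α β ι κ p) (Fl_anti α β ι κ p) p := by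
  refine ⟨fun i v hv => ?_, h.fix⟩
  cases i with
  | zero =>
    obtain ⟨x, hx⟩ := h.im v
    exact mem_Fl.2 ⟨x, trivial, 0, trivial, by simpa using hx⟩
  | succ k =>
    obtain ⟨x, -, y, hy, e⟩ := mem_Fl.1 hv
    exact mem_Fl.2 ⟨α y, ⟨y, hy, rfl⟩, 0, zero_mem _, by simpa using h.step e⟩

theorem Pr.mem_St' [Finite G] (h : Pr ρ p κ ι β b) : b ∈ St ρ (Fl α β ι κ p) (Fl_anti α β ι κ p) p := by
  refine ⟨fun i v hv => ?_, h.fix⟩
  cases i with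
  | zero =>
    obtain ⟨x, hx⟩ := h.im v
    exact mem_Fl.2 ⟨0, trivial, x, trivial, by simpa using hx⟩
  | succ k =>
    obtain ⟨x, hx, y, -, e⟩ := mem_Fl.1 hv
    exact mem_Fl.2 ⟨0, zero_mem _, β x, ⟨x, hx, rfl⟩, by simpa using h.step (x := y) (by rwa [add_comm])⟩

theorem ev_step (h : Pr ρ p ι κ α a) (h' : Pr ρ p κ ι β b) (w : List Bool) (z : (F × F) × (F × F)) :
    ρ (evG a b w) (ι z.1 + κ z.2) - (ι (evF (qd α) (qd β) w z).1 + κ (evF (qd α) (qd β) w z).2) ∈ p := by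
  induction w with
  | nil => simp [evG, evF]
  | cons l w ih =>
    cases l
    · have := p.add_mem (h'.step (x := (evF (qd α) (qd β) w z).2) (by rwa [add_comm (κ _)])) ih
      simp only [evG, evF, cond_false, map_mul, Module.End.mul_apply, ap_qd, map_add] at this ⊢
      convert this using 1; abel
    · have := p.add_mem (h.step ih) ih
      simp only [evG, evF, cond_true, map_mul, Module.End.mul_apply, ap_qd, map_add] at this ⊢
      convert this using 1; abel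

theorem lin_zero {f : F × F →ₗ[F] F × F} (h1 : f (1, 0) = 0) (h2 : f (0, 1) = 0) (x : F × F) : f x = 0 := by
  have : x = x.1 • ((1 : F), (0 : F)) + x.2 • ((0 : F), (1 : F)) := by simp
  rw [this, map_add, map_smul, map_smul, h1, h2]; simp

theorem Fl8 (h : nilB (qd α) (qd β) = true) : Fl α β ι κ p 8 ≤ p := by
  simp only [nilB, ap_qd, List.all_cons, List.all_nil, Bool.and_true, Bool.and_eq_true, beq_iff_eq] at h
  have h1 := lin_zero (f := α ∘ₗ β ∘ₗ α ∘ₗ β) h.1.1 h.2.1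
  have h2 := lin_zero (f := β ∘ₗ α ∘ₗ β ∘ₗ α) h.1.2 h.2.2
  refine ((Fl_anti _ _ _ _ _ 7).trans ((Fl_anti _ _ _ _ _ 6).trans (Fl_anti _ _ _ _ _ 5))).trans fun v hv => ?_
  obtain ⟨_, ⟨_, ⟨_, ⟨_, ⟨x, -, rfl⟩, rfl⟩, rfl⟩, rfl⟩, _, ⟨_, ⟨_, ⟨_, ⟨y, -, rfl⟩, rfl⟩, rfl⟩, rfl⟩, e⟩ := mem_Fl.1 hv
  have e1 : α (β (α (β x))) = 0 := h1 x
  have e2 : β (α (β (α y))) = 0 := h2 y
  simpa [e1, e2] using e

theorem neg_of (h : Pr ρ p ι κ α a) (h' : Pr ρ p κ ι β b) {w : List Bool} (hw : negB (qd α) (qd β) w = true)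
    (x y : F × F) : ρ (evG a b w) (ι x + κ y) + (ι x + κ y) ∈ p := by
  simp only [negB, bs, List.all_cons, List.all_nil, Bool.and_true, Bool.and_eq_true, beq_iff_eq] at hw
  have k : ∀ z, evF (qd α) (qd β) w z = -z → ρ (evG a b w) (ι z.1 + κ z.2) + (ι z.1 + κ z.2) ∈ p := fun z e => by
    have := ev_step h h' w z
    rw [e] at this
    convert this using 1
    simp only [Prod.fst_neg, Prod.snd_neg, map_neg]; abel
  have := p.add_mem (p.add_mem (p.smul_mem x.1 (k _ hw.1)) (p.smul_mem x.2 (k _ hw.2.1)))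
    (p.add_mem (p.smul_mem y.1 (k _ hw.2.2.1)) (p.smul_mem y.2 (k _ hw.2.2.2)))
  have ex : x = x.1 • ((1 : F), (0 : F)) + x.2 • ((0 : F), (1 : F)) := by simp
  have ey : y = y.1 • ((1 : F), (0 : F)) + y.2 • ((0 : F), (1 : F)) := by simp
  convert this using 1
  conv_lhs => rw [ex, ey]
  simp only [map_add, map_smul, smul_add, show ((0 : F), (0 : F)) = 0 from rfl, map_zero, add_zero, zero_add]
  abel

/-- the short flag -/
def F2 (Z p : Submodule F V) : ℕ → Submodule F V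
  | 0 => ⊤
  | 1 => Z ⊔ p
  | _ + 2 => p

theorem F2_anti (Z p : Submodule F V) : ∀ k, F2 Z p (k + 1) ≤ F2 Z p k
  | 0 => le_top
  | 1 => le_sup_right
  | _ + 2 => le_rfl

def F1 (Z p : Submodule F V) : ℕ → Submodule F V
  | 0 => ⊤
  | _ + 1 => Z ⊔ p

theorem F1_anti (Z p : Submodule F V) : ∀ k, F1 Z p (k + 1) ≤ F1 Z p k
  | 0 => le_top
  | _ + 1 => le_rfl

theorem mem_F1 [Finite G] {Z : Submodule F V} {x : G} :
    x ∈ St ρ (F1 Z p) (F1_anti Z p) p ↔ (∀ v, ρ x v - v ∈ Z ⊔ p) ∧ ∀ v ∈ p, ρ x v = v :=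
  ⟨fun h => ⟨fun v => h.1 0 v trivial, h.2⟩, fun h => ⟨fun _ v _ => h.1 v, h.2⟩⟩

theorem mem_F2 [Finite G] {Z : Submodule F V} {x : G} :
    x ∈ St ρ (F2 Z p) (F2_anti Z p) p ↔ x ∈ St ρ (F1 Z p) (F1_anti Z p) p ∧ ∀ v ∈ Z ⊔ p, ρ x v - v ∈ p := by
  refine ⟨fun h => ⟨mem_F1.2 ⟨fun v => h.1 0 v trivial, h.2⟩, h.1 1⟩, fun h => ⟨fun i v hv => ?_, h.1.2⟩⟩
  match i with
  | 0 => exact h.1.1 0 v hv
  | 1 => exact h.2 v hv
  | i + 2 => rw [h.1.2 v hv, sub_self]; exact zero_mem _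

theorem F1_norm [Finite G] {Z : Submodule F V} :
    St ρ (F1 Z p) (F1_anti Z p) p ≤ normalizer (St ρ (F2 Z p) (F2_anti Z p) p : Set G) := by
  have k : ∀ y ∈ St ρ (F1 Z p) (F1_anti Z p) p, ∀ x ∈ St ρ (F2 Z p) (F2_anti Z p) p,
      y * x * y⁻¹ ∈ St ρ (F2 Z p) (F2_anti Z p) p := fun y hy x hx => by
    rw [mem_F2] at hx ⊢
    refine ⟨mul_mem (mul_mem hy hx.1) (inv_mem hy), fun v hv => ?_⟩
    have h1 := hx.2 _ (mem_of_sub le_rfl hv ((mem_F1.1 (inv_mem hy)).1 v))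
    have h2 := hy.2 _ h1
    have h3 : ρ y (ρ y⁻¹ v) = v := by rw [← Module.End.mul_apply, ← map_mul]; simp
    rw [map_sub, h3] at h2
    simpa only [map_mul, Module.End.mul_apply, h2] using h1
  intro y hy
  refine mem_normalizer_iff.2 fun x => ⟨k y hy x, fun h => ?_⟩
  simpa [mul_assoc] using k _ (inv_mem hy) _ h

/-- **Quadratic pair lemma.** -/
theorem QD.main [Finite G] (hρ : Function.Injective ρ) {A H : Subgroup G} (hS : SE A H) {u : F × F → G}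
    {π : V →ₗ[F] F × F} (h : QD ρ H u p ι π) {g : G} (hg : g ∈ A) (hp : ∀ v ∈ p, ρ g v ∈ p) (hH : g ∉ H) :
    ∃ τ ∈ A, τ ^ 2 = 1 ∧ (∀ s, τ * u s = u s * τ) ∧ (∀ v ∈ p, ρ τ v = v) ∧
      (∀ x y, ρ τ (ι x + ρ g (ι y)) + (ι x + ρ g (ι y)) ∈ p) ∧
      ∀ v, ∃ x y, ρ τ v - v - (ι x + ρ g (ι y)) ∈ p := by
  haveI : Fact (Nat.Prime 3) := ⟨by norm_num⟩
  have hp' : ∀ v ∈ p, ρ g⁻¹ v ∈ p := inv_mem_of_mul (s := {g | ∀ v ∈ p, ρ g v ∈ p}) (fun v hv => by simpa using hv)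
    (fun a ha b hb v hv => by rw [map_mul]; exact ha _ (hb v hv)) hp
  have gg : ∀ v, ρ g⁻¹ (ρ g v) = v := fun v => by rw [← Module.End.mul_apply, ← map_mul]; simp
  have gg' : ∀ v, ρ g (ρ g⁻¹ v) = v := fun v => by rw [← Module.End.mul_apply, ← map_mul]; simp
  set κ : F × F →ₗ[F] V := ρ g ∘ₗ ι with hκ
  let al : F × F → F × F →ₗ[F] F × F := fun s => π ∘ₗ (ρ (u s) - 1) ∘ₗ κ
  let be : F × F → F × F →ₗ[F] F × F := fun s => π ∘ₗ (ρ (u s) - 1) ∘ₗ ρ g⁻¹ ∘ₗ ι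
  have P1 : ∀ s, Pr ρ p ι κ (al s) (u s) := fun s => ⟨h.fix s, fun v => ⟨_, h.im s v⟩, h.sq s, fun y => h.im s _⟩
  have cj : ∀ t v, ρ (g * u t * g⁻¹) v = ρ g (ρ (u t) (ρ g⁻¹ v)) := fun t v => by simp only [map_mul, Module.End.mul_apply]
  have im : ∀ t v, ρ (g * u t * g⁻¹) v - v - κ (π (ρ (u t) (ρ g⁻¹ v) - ρ g⁻¹ v)) ∈ p := fun t v => by
    have := hp _ (h.im t (ρ g⁻¹ v))
    rwa [map_sub, map_sub, gg', ← cj] at this
  have P2 : ∀ t, Pr ρ p κ ι (be t) (g * u t * g⁻¹) := fun t =>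
    ⟨fun v hv => by rw [cj, h.fix t _ (hp' v hv), gg'], fun v => ⟨_, im t v⟩, fun x => by
      have := hp _ (h.sq t x)
      rw [map_sub] at this
      rwa [cj, hκ, LinearMap.comp_apply, gg], fun y => im t _⟩
  let tr : F × F → F := fun t => (qd (al (1, 0))).1 * (qd (be t)).1 + (qd (al (1, 0))).2.1 * (qd (be t)).2.2.1 +
    (qd (al (1, 0))).2.2.1 * (qd (be t)).2.1 + (qd (al (1, 0))).2.2.2 * (qd (be t)).2.2.2
  obtain ⟨t, ht, et⟩ := exists_t (tr (1, 0)) (tr (0, 1))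
  have hb : ∀ x, be t x = t.1 • be (1, 0) x + t.2 • be (0, 1) x := fun x => h.lin t _
  have e0 : tr t = 0 := by
    rw [← et]
    simp only [tr, qd, hb, Prod.fst_add, Prod.snd_add, Prod.smul_fst, Prod.smul_snd, smul_eq_mul]
    ring
  have n10 : ((1, 0) : F × F) ≠ 0 := fun e => one_ne_zero (congrArg Prod.fst e)
  have hbA : g * u t * g⁻¹ ∈ A := mul_mem (mul_mem hg (hS.le (h.mem t))) (inv_mem hg)
  have nb : g * u t * g⁻¹ ∉ H := fun e => hH (hS.mem g hg _ (h.mem t) (h.ne t ht) (h.cube t) e)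
  have key : ∃ w, negB (qd (al (1, 0))) (qd (be t)) w = true := by
    have := fin_chk _ _ _ _ _ _ _ _ e0
    rw [Bool.or_eq_true, Bool.or_eq_true] at this
    rcases this with e | e | e
    · exact (nb (hS.le_of_pgroup ((St_pgroup ρ hρ (hF := Fl_anti (al (1, 0)) (be t) ι κ p) rfl (Fl8 e)).to_inf_left
        (K := A)) inf_le_right ⟨(P1 _).mem_St, hS.le (h.mem _)⟩ (h.mem _) (h.ne _ n10) (h.cube _)
        ⟨(P2 t).mem_St', hbA⟩)).elim
    exacts [⟨_, e⟩, ⟨_, e⟩]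
  obtain ⟨w, hw⟩ := key
  have hn := neg_of (P1 _) (P2 t) hw
  set τ := evG (u (1, 0)) (g * u t * g⁻¹) w
  let Z : Submodule F V := LinearMap.range ι ⊔ LinearMap.range κ
  have mZ : ∀ v, v ∈ Z ⊔ p ↔ ∃ x y, v - (ι x + κ y) ∈ p := fun v => by
    have := mem_Fl (α := 0) (β := 0) (ι := ι) (κ := κ) (p := p) (k := 0) (v := v)
    simpa [Fl, AB, Z] using this
  have m1 : ∀ s, u s ∈ St ρ (F1 Z p) (F1_anti Z p) p := fun s => mem_F1.2 ⟨fun v => by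
    obtain ⟨x, hx⟩ := (P1 s).im v
    exact (mZ _).2 ⟨x, 0, by simpa using hx⟩, h.fix s⟩
  have m2 : g * u t * g⁻¹ ∈ St ρ (F1 Z p) (F1_anti Z p) p := mem_F1.2 ⟨fun v => by
    obtain ⟨x, hx⟩ := (P2 t).im v
    exact (mZ _).2 ⟨0, x, by simpa using hx⟩, (P2 t).fix⟩
  have mτ : τ ∈ St ρ (F1 Z p) (F1_anti Z p) p := evG_mem (m1 _) m2 w
  have hτA : τ ∈ A := evG_mem (hS.le (h.mem _)) hbA w
  have hneg : ∀ v ∈ Z ⊔ p, ρ τ v + v ∈ p := fun v hv => by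
    obtain ⟨x, y, e⟩ := (mZ v).1 hv
    have := p.add_mem (p.add_mem (hn x y) e) ((mτ.2 _ e).symm ▸ e : ρ τ (v - (ι x + κ y)) ∈ p)
    convert this using 1
    rw [map_sub]; abel
  have pres : ∀ y ∈ St ρ (F1 Z p) (F1_anti Z p) p, ∀ v ∈ Z ⊔ p, ρ y v ∈ Z ⊔ p := fun y hy v hv =>
    mem_of_sub le_rfl hv ((mem_F1.1 hy).1 v)
  have triv : ∀ c ∈ A, c ∈ St ρ (F2 Z p) (F2_anti Z p) p → c = 1 := fun c hc hc' => by
    by_contra h1
    have hK := (St_pgroup ρ hρ (hF := F2_anti Z p) rfl le_rfl).to_inf_left (K := A)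
    have nA : ∀ y ∈ A, y ∈ St ρ (F1 Z p) (F1_anti Z p) p →
        y ∈ normalizer ((St ρ (F2 Z p) (F2_anti Z p) p ⊓ A : Subgroup G) : Set G) := fun y hy hy' =>
      inf_normalizer_le_normalizer_inf ⟨F1_norm hy', le_normalizer hy⟩
    have hz : IsPGroup 3 (zpowers (u (1, 0))) :=
      IsPGroup.of_card (n := 1) (by rw [Nat.card_zpowers, pow_one]; exact orderOf_eq_prime (h.cube _) (h.ne _ n10))
    have hP := (hK.to_sup_of_normal_left' hz ((zpowers_le (g := u (1, 0))).2 (nA _ (hS.le (h.mem _)) (m1 _))))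
    have hle := le_sup_left.trans (hS.le_of_pgroup hP (sup_le inf_le_right ((zpowers_le (g := u (1, 0))).2 (hS.le (h.mem _))))
      (le_sup_right (a := St ρ (F2 Z p) (F2_anti Z p) p ⊓ A) (mem_zpowers _)) (h.mem _) (h.ne _ n10) (h.cube _))
    obtain ⟨k, hk, k1, k3, -⟩ := exists_three hK ⟨hc', hc⟩ h1
    exact nb (hS.mem _ hbA k (hle hk) k1 k3 (hle ((mem_normalizer_iff.1 (nA _ hbA m2) k).1 hk)))
  refine ⟨τ, hτA, triv _ (pow_mem hτA 2) (mem_F2.2 ⟨pow_mem mτ 2, fun v hv => ?_⟩), fun s => ?_, mτ.2, hn,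
    fun v => (mZ _).1 ((mem_F1.1 mτ).1 v)⟩
  · have := p.sub_mem (hneg _ (pres τ mτ v hv)) (hneg v hv)
    convert this using 1
    rw [pow_two, map_mul, Module.End.mul_apply]; abel
  · have := triv (τ * u s * τ⁻¹ * (u s)⁻¹) (mul_mem (mul_mem (mul_mem hτA (hS.le (h.mem s))) (inv_mem hτA))
      (inv_mem (hS.le (h.mem s)))) (mem_F2.2 ⟨mul_mem (mul_mem (mul_mem mτ (m1 s)) (inv_mem mτ)) (inv_mem (m1 s)),
        fun v hv => ?_⟩)
    · rw [mul_inv_eq_one, mul_inv_eq_iff_eq_mul] at this; exact this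
    · have hw' := pres _ (mul_mem (inv_mem mτ) (inv_mem (m1 s))) v hv
      set w' := ρ (τ⁻¹ * (u s)⁻¹) v
      have e1 : v = ρ (u s) (ρ τ w') := by
        rw [← Module.End.mul_apply, ← Module.End.mul_apply, ← map_mul, ← map_mul]; simp [mul_assoc]
      have e2 : ρ (τ * u s * τ⁻¹ * (u s)⁻¹) v = ρ τ (ρ (u s) w') := by
        rw [← Module.End.mul_apply, ← Module.End.mul_apply, ← map_mul, ← map_mul]; simp [mul_assoc]
      have e3 := hneg _ hw'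
      have := p.sub_mem (hneg _ (pres _ (m1 s) _ hw')) ((h.fix s _ e3).symm ▸ e3 : ρ (u s) (ρ τ w' + w') ∈ p)
      rw [e2]
      convert this using 1
      rw [map_add, ← e1]; abel

end CL.C1J
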