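/- A subgroup of `GL₆(3)` containing `UT₃(3)` acting on the symmetric square has no strongly 3-embedded subgroup
(for S5227: the subgroup `3⁶` of a Sylow 3-subgroup of `Co₁` is never essential). -/
import Cfsg.Agent.FUS.C1J.J1
import Cfsg.Agent.FUS.C1J.QP2
set_option autoImplicit false

namespace CL.C1J
open CL.K Cfsg CL.Fus MulAction

def mu (s : F × F) (v : W) : W := ![v 0 + s.1 * v 1 + s.2 * v 2 + s.1 * s.1 * v 3 + s.1 * s.2 * v 4 + s.2 * s.2 * v 5,
  v 1 + 2 * s.1 * v 3 + s.2 * v 4, v 2 + s.1 * v 4 + 2 * s.2 * v 5, v 3, v 4, v 5]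

theorem mu_add (s t : F × F) (v : W) : mu (s + t) v = mu s (mu t v) := by
  funext i; fin_cases i <;> simp [mu] <;> ring

theorem mu_zero (v : W) : mu 0 v = v := by
  funext i; fin_cases i <;> simp [mu]

theorem ma_eq (v : W) : ma v = mu (1, 0) v := by simp [ma, mu]
theorem mz_eq (v : W) : mz v = mu (0, 1) v := by simp [mz, mu]

theorem mz_word (v : W) : ma (mb (ma (ma (mb (mb v))))) = mz v := by
  have h3 : (3 : F) = 0 := rfl
  funext i; fin_cases i <;> simp [ma, mb, mz]
  · linear_combination (v 1 + 2 * v 2 + 3 * v 3 + 7 * v 4 + 16 * v 5) * h3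
  · linear_combination (v 2 + 2 * v 3 + 5 * v 4 + 14 * v 5) * h3
  · linear_combination (v 4 + 4 * v 5) * h3
  · linear_combination (v 4 + 3 * v 5) * h3
  · linear_combination (2 * v 5) * h3

variable {G : Type*} [Group G] {ρ : G →* Module.End F W}

theorem rho_pow {x : G} {s : F × F} (h : ∀ v, ρ x v = mu s v) (k : ℕ) (v : W) : ρ (x ^ k) v = mu (k • s) v := by
  induction k with
  | zero => simp [mu_zero]
  | succ k ih => rw [pow_succ', map_mul, Module.End.mul_apply, ih, h, ← mu_add, succ_nsmul']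

theorem rho_it {x : G} {f : ℕ → ℕ} (h : ∀ n, ρ x (D n) = D (f n)) (k n : ℕ) : ρ (x ^ k) (D n) = D (it f k n) := by
  induction k with
  | zero => simp [it]
  | succ k ih => rw [pow_succ', map_mul, Module.End.mul_apply, ih, h, it_succ]

theorem D_sign (k n : ℕ) : D (it ng k n) = D n ∨ D (it ng k n) = -D n := by
  induction k with
  | zero => exact Or.inl rfl
  | succ k ih => rw [it_succ, D_ng]; rcases ih with h | h <;> simp [h]

def e0 : W := ![1, 0, 0, 0, 0, 0]
theorem D_one : D 1 = e0 := by decide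
def io : F × F →ₗ[F] W where
  toFun x := ![0, x.1, x.2, 0, 0, 0]
  map_add' x y := by simp
  map_smul' c x := by simp
def pr : W →ₗ[F] F × F := (LinearMap.proj 1).prod (LinearMap.proj 2)

theorem mem_p {v : W} : v ∈ Submodule.span F {e0} ↔ v 1 = 0 ∧ v 2 = 0 ∧ v 3 = 0 ∧ v 4 = 0 ∧ v 5 = 0 := by
  rw [Submodule.mem_span_singleton]
  constructor
  · rintro ⟨c, rfl⟩; simp [e0]
  · rintro ⟨h1, h2, h3, h4, h5⟩
    exact ⟨v 0, by funext i; fin_cases i <;> simp [e0, *]⟩

theorem mu_fix (s : F × F) {v : W} (h : v ∈ Submodule.span F {e0}) : mu s v = v := by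
  obtain ⟨h1, h2, h3, h4, h5⟩ := mem_p.1 h
  funext i; fin_cases i <;> simp [mu, *]

/-- the stabiliser of the point `e₁²` lies in the strongly embedded subgroup -/
theorem stab_le [Finite G] (hρ : Function.Injective ρ) {A H : Subgroup G} (hS : SE A H) {a z : G} (ha : a ∈ H) (hz : z ∈ H)
    (ea : ∀ v, ρ a v = ma v) (ez : ∀ v, ρ z v = mz v) {g : G} (hg : g ∈ A) (h : ρ g e0 = e0 ∨ ρ g e0 = -e0) : g ∈ H := by
  by_contra hH
  let u : F × F → G := fun s => a ^ s.1.val * z ^ s.2.val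
  have hu : ∀ s v, ρ (u s) v = mu s v := fun s v => by
    rw [map_mul, Module.End.mul_apply, rho_pow (fun v => (ea v).trans (ma_eq v)), rho_pow (fun v => (ez v).trans (mz_eq v)),
      ← mu_add]
    simp
  have Q : QD ρ H u (Submodule.span F {e0}) io pr :=
    { mem := fun s => mul_mem (pow_mem ha _) (pow_mem hz _)
      ne := fun s hs e => hs (by
        have := hu s ![0, 1, 0, 0, 0, 0]
        have h2 := hu s ![0, 0, 1, 0, 0, 0]
        rw [e, map_one] at this h2
        exact Prod.ext (by simpa [mu] using (congrFun this 0).symm) (by simpa [mu] using (congrFun h2 0).symm))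
      cube := fun s => hρ (LinearMap.ext fun v => by
        rw [rho_pow (hu s), show 3 • s = 0 from by ext <;> simp [show (3 : F) = 0 from rfl], mu_zero]; simp)
      fix := fun s v hv => (hu s v).trans (mu_fix s hv)
      im := fun s v => mem_p.2 (by simp [hu, mu, io, pr, Matrix.vecHead, Matrix.vecTail])
      sq := fun s x => mem_p.2 (by simp [hu, mu, io])
      lin := fun s v => by ext <;> simp [hu, mu, pr, Matrix.vecHead, Matrix.vecTail] <;> ring }
  obtain ⟨τ, -, -, hc, hf, hn, -⟩ := Q.main hρ hS hg (fun v hv => by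
    obtain ⟨c, rfl⟩ := Submodule.mem_span_singleton.1 hv
    rw [map_smul]
    refine Submodule.smul_mem _ _ ?_
    rcases h with h | h <;> simp [h]) hH
  set N : Module.End F W := ρ (u (1, 0)) - 1 with hN
  have cm : ∀ v, ρ τ (N v) = N (ρ τ v) := fun v => by
    have := congrArg (fun x => ρ x v) (hc (1, 0))
    simp only [map_mul, Module.End.mul_apply] at this
    simp [hN, this]
  let v : W := ![0, 0, 0, 1, 0, 0]
  have e1 : N v = e0 + io (2, 0) := by funext i; fin_cases i <;> simp [hN, hu, mu, v, e0, io]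
  have e2 : N (N v) = -e0 := by
    rw [e1]; funext i; fin_cases i <;> simp [hN, hu, mu, e0, io]; rfl
  have m0 : e0 ∈ Submodule.span F {e0} := Submodule.mem_span_singleton_self _
  have e3 : N (ρ τ v) + N v ∈ Submodule.span F {e0} := by
    have := Submodule.add_mem _ (hn (2, 0) 0) (Submodule.add_mem _ m0 m0)
    rw [← cm, e1, map_add, hf _ m0]
    convert this using 1
    simp only [map_zero, add_zero]; abel
  have e4 : N (N (ρ τ v) + N v) = 0 := by
    generalize N (ρ τ v) + N v = w at e3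
    rw [hN, LinearMap.sub_apply, Q.fix _ _ e3]; simp
  rw [map_add, ← cm, ← cm, e2, map_neg, hf _ m0] at e4
  exact absurd e4 (by decide)

/-- the action of `G × {±1}` -/
def sg (ρ : G →* Module.End F W) : G × ℤˣ →* Module.End F W where
  toFun p := p.2 • ρ p.1
  map_one' := by simp
  map_mul' p q := by rw [smul_mul_smul_comm, ← map_mul]; rfl

def Ob (ρ : G →* Module.End F W) (K : Subgroup G) : Set W := {v | ∃ g ∈ K, v = ρ g e0 ∨ v = -ρ g e0}

theorem Ob_dvd [Finite G] {A H : Subgroup G} (hle : H ≤ A) (h : ∀ g ∈ A, (ρ g e0 = e0 ∨ ρ g e0 = -e0) → g ∈ H) :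
    (Ob ρ H).ncard ∣ (Ob ρ A).ncard := by
  letI : MulAction (G × ℤˣ) W := MulAction.compHom W (sg ρ)
  have hs : ∀ (p : G × ℤˣ) (v : W), p • v = p.2 • ρ p.1 v := fun _ _ => rfl
  have e : ∀ K : Subgroup G, (Ob ρ K).ncard = (stabilizer (G × ℤˣ) e0).relIndex (K.prod ⊤) := fun K => by
    have : Ob ρ K = orbit (K.prod (⊤ : Subgroup ℤˣ)) e0 := by
      ext v
      constructor
      · rintro ⟨g, hg, rfl | rfl⟩
        exacts [⟨⟨(g, 1), hg, trivial⟩, by simp [Subgroup.smul_def, hs]⟩, ⟨⟨(g, -1), hg, trivial⟩, by simp [Subgroup.smul_def, hs]⟩]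
      · rintro ⟨⟨⟨g, ε⟩, hg, -⟩, rfl⟩
        refine ⟨g, hg, ?_⟩
        rcases Int.units_eq_one_or ε with rfl | rfl <;> simp [Subgroup.smul_def, hs]
    rw [this, ← index_stabilizer]; rfl
  have hl : H.prod (⊤ : Subgroup ℤˣ) ≤ A.prod ⊤ := Subgroup.prod_mono hle le_rfl
  have h1 : stabilizer (G × ℤˣ) e0 ⊓ A.prod ⊤ ≤ H.prod ⊤ := by
    rintro ⟨g, ε⟩ ⟨h1, h2, -⟩
    refine ⟨h g h2 ?_, trivial⟩
    replace h1 : ε • ρ g e0 = e0 := h1
    rcases Int.units_eq_one_or ε with rfl | rfl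
    · exact Or.inl (by simpa using h1)
    · exact Or.inr (by simpa [neg_eq_iff_eq_neg] using h1)
  rw [e, e, ← Subgroup.inf_relIndex_right _ (A.prod ⊤), ← Subgroup.relIndex_mul_relIndex _ _ _ h1 hl,
    ← Subgroup.inf_relIndex_right (_ ⊓ _), inf_assoc, inf_eq_right.2 hl, Subgroup.inf_relIndex_right]
  exact dvd_mul_right _ _

theorem Ob_neg {K : Subgroup G} (v : W) : -v ∈ Ob ρ K ↔ v ∈ Ob ρ K :=
  exists_congr fun g => and_congr_right fun _ => by rw [neg_eq_iff_eq_neg, neg_inj, or_comm]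

theorem Ob_act {K : Subgroup G} {g : G} (hg : g ∈ K) (v : W) : ρ g v ∈ Ob ρ K ↔ v ∈ Ob ρ K := by
  have k : ∀ g ∈ K, ∀ v ∈ Ob ρ K, ρ g v ∈ Ob ρ K := by
    rintro g hg _ ⟨x, hx, rfl | rfl⟩
    exacts [⟨g * x, mul_mem hg hx, Or.inl (by simp)⟩, ⟨g * x, mul_mem hg hx, Or.inr (by simp)⟩]
  refine ⟨fun h => ?_, k g hg v⟩
  have := k _ (inv_mem hg) _ h
  rwa [← Module.End.mul_apply, ← map_mul, inv_mul_cancel, map_one] at this

theorem rho_bij (g : G) : Function.Bijective (ρ g) :=
  Function.bijective_iff_has_inverse.2 ⟨ρ g⁻¹, fun v => by rw [← Module.End.mul_apply, ← map_mul]; simp,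
    fun v => by rw [← Module.End.mul_apply, ← map_mul]; simp⟩

/-- **No strongly 3-embedded subgroup.** -/
theorem no_se [Finite G] (hρ : Function.Injective ρ) {A H : Subgroup G} (hS : SE A H) {a b : G} (ha : a ∈ H) (hb : b ∈ H)
    (ea : ∀ v, ρ a v = ma v) (eb : ∀ v, ρ b v = mb v) : A ≤ H := by
  intro g hg
  by_contra hH
  set z := a * (b * (a * (a * (b * b)))) with hz'
  have hz : z ∈ H := mul_mem ha (mul_mem hb (mul_mem ha (mul_mem ha (mul_mem hb hb))))
  have ez : ∀ v, ρ z v = mz v := fun v => by simp only [hz', map_mul, Module.End.mul_apply, ea, eb, mz_word]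
  have st := fun g hg => stab_le hρ hS ha hz ea ez (g := g) hg
  let el : ℕ → G := fun c => a ^ (c % 3) * (b ^ (c / 3 % 3) * z ^ (c / 9 % 3))
  have hel : ∀ c, el c ∈ H := fun c => mul_mem (pow_mem ha _) (mul_mem (pow_mem hb _) (pow_mem hz _))
  have ee : ∀ c n, ρ (el c) (D (it ng (c / 27) n)) = D (wd c n) := fun c n => by
    rw [map_mul, map_mul, Module.End.mul_apply, Module.End.mul_apply, rho_it fun n => (ez _).trans (D_fz n).symm,
      rho_it fun n => (eb _).trans (D_fb n).symm, rho_it fun n => (ea _).trans (D_fa n).symm, wd]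
  have ee' : ∀ c < 27, ∀ n, ρ (el c) (D n) = D (wd c n) := fun c hc n => by
    rw [← ee, Nat.div_eq_of_lt hc]; rfl
  have cd : ∀ K : Subgroup G, H ≤ K → ∃ S, Cd (Ob ρ K) S := fun K hK => by
    classical
    refine ⟨Nat.ofBits fun i : Fin 22 => decide (D (rep i) ∈ Ob ρ K), Nat.ofBits_lt_two_pow _, fun n hn => ?_⟩
    have c := allLt_iff.1 chk1 n hn
    simp only [force_eq, Bool.and_eq_true, Nat.blt_eq, Nat.beq_eq] at c
    have e : D n ∈ Ob ρ K ↔ D (rep (lb n)) ∈ Ob ρ K := by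
      conv_lhs => rw [← c.2.2, ← ee, Ob_act (hK (hel _))]
      rcases D_sign (fld 6 63 CERT n / 27) (rep (lb n)) with h | h <;> rw [h]
      exact Ob_neg _
    rw [e, Nat.testBit_ofBits]
    split_ifs with h
    · simp
    · rw [show lb n = 22 by omega, show D (rep 22) = 0 by decide +kernel]
      have : ∀ g, ρ g e0 ≠ 0 := fun g e => absurd ((rho_bij g).1 (e.trans (map_zero _).symm)) (by decide)
      simp [Ob, eq_comm (a := (0 : W)), this]
  obtain ⟨S, hX⟩ := cd A hS.le
  obtain ⟨T, hY⟩ := cd H le_rfl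
  have nm : ∀ g ∈ A, ρ g e0 ∈ Ob ρ H → g ∈ H := by
    rintro g hg ⟨x, hx, e⟩
    have := st (x⁻¹ * g) (mul_mem (inv_mem (hS.le hx)) hg) (by
      have k : ρ x⁻¹ (ρ x e0) = e0 := by rw [← Module.End.mul_apply, ← map_mul]; simp
      rw [map_mul, Module.End.mul_apply]
      rcases e with e | e <;> simp [e, k])
    simpa using mul_mem hx this
  refine final hX hY ⟨1, one_mem _, Or.inl (by simp [D_one])⟩
    ⟨fun v ⟨x, hx, e⟩ => ⟨x, hS.le hx, e⟩, fun h => hH (nm g hg (h ⟨g, hg, Or.inl rfl⟩))⟩ (Ob_dvd hS.le st) ?_ ?_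
  · rintro n hn hl ⟨x, hx, e⟩
    have c' := allLt_iff.1 chk2 n hn
    simp only [force_eq, Bool.and_eq_true, Bool.or_eq_true, Nat.ble_eq, Nat.blt_eq, Nat.beq_eq] at c'
    obtain ⟨⟨c0, c1⟩, c2⟩ := c'.resolve_left (by omega)
    generalize fld 5 31 FIX n = c at c0 c1 c2
    have c4 := allLt_iff.1 chk4 c c1
    simp only [force_eq, Bool.and_eq_true, Bool.or_eq_true, Nat.beq_eq, allLt_iff, c0.ne', false_or,
      Bool.not_eq_true'] at c4
    have ne : el c ≠ 1 := fun e1 => by
      have k : ∀ n < 729, wd c n < 729 → wd c n = n := fun n hn h => D_inj h hn (by rw [← ee' c c1, e1]; simp)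
      have lt : ∀ n < 729, wd c n < 729 := fun n hn => by
        have : ∀ {f : ℕ → ℕ}, (∀ n, f n < 729) → ∀ k n, n < 729 → it f k n < 729 := fun hf k n hn => by
          cases k with
          | zero => exact hn
          | succ k => rw [it_succ]; exact hf _
        exact this (fun _ => pk6_lt ..) _ _ (this (fun _ => pk6_lt ..) _ _ (this (fun _ => pk6_lt ..) _ _
          (this (fun _ => pk6_lt ..) _ _ hn)))
      rw [k 243 (by norm_num) (lt _ (by norm_num)), k 81 (by norm_num) (lt _ (by norm_num))] at c4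
      simp at c4
    have cu : el c ^ 3 = 1 := hρ ((Pi.basisFun F (Fin 6)).ext fun i => by
      have : Pi.basisFun F (Fin 6) i = D (3 ^ (i : ℕ)) := by rw [Pi.basisFun_apply]; revert i; decide
      rw [this, map_pow, pow_three, Module.End.mul_apply, Module.End.mul_apply, ee' c c1, ee' c c1, ee' c c1,
        c4.1 i i.2]; simp)
    have fx : ρ (el c) (ρ x e0) = ρ x e0 := by
      have := ee' c c1 n
      rw [c2] at this
      rcases e with e | e <;> simpa [e] using this
    have := hS.mem x⁻¹ (inv_mem hx) _ (hel c) ne cu (st _ (mul_mem (mul_mem (inv_mem hx) (hS.le (hel c))) (inv_mem (inv_mem hx)))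
      (Or.inl (by rw [inv_inv, map_mul, map_mul, Module.End.mul_apply, Module.End.mul_apply, fx, ← Module.End.mul_apply,
        ← map_mul]; simp)))
    exact ⟨x, by simpa using this, e⟩
  · rintro _ ⟨x, hx, rfl | rfl⟩
    · exact ⟨(ρ x).toAddMonoidHom, rho_bij x, Ob_act hx, by simp [D_one]⟩
    · exact ⟨(-ρ x).toAddMonoidHom, neg_involutive.bijective.comp (rho_bij x), fun w => (Ob_neg _).trans (Ob_act hx w),
        by simp [D_one]⟩

theorem no_relSPE [Finite G] (hρ : Function.Injective ρ) {T A H : Subgroup G} (hT : SylIn 3 T A) (h : RelSPE ⊥ T A H)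
    {a b : G} (ha : a ∈ T) (hb : b ∈ T) (ea : ∀ v, ρ a v = ma v) (eb : ∀ v, ρ b v = mb v) : False :=
  h.2.1.not_ge (no_se hρ (se_of_relSPE hT h) (h.le hT.le ha) (h.le hT.le hb) ea eb)

end CL.C1J
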