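/- The Sylow 3-subgroup of `Co₁` and the generating maps of its fusion system (S5227). -/
import Cfsg.Agent.FUS.C1J.Hom
import Cfsg.Agent.FUS.C1J.Co
set_option autoImplicit false

namespace CL.C1F
open CL.Fus Subgroup Cfsg CL.C1J CL.CE CL.Co1T

/-- the word of an element in the letters `cg` -/
def wl (x : U) : List ℕ := List.replicate x.p.val 0 ++ (List.replicate (2 * x.q.val) 1 ++ (List.replicate (2 * x.r.val) 2 ++
  (List.replicate x.u.val 3 ++ (List.replicate (2 * x.v.val) 4 ++ (List.replicate x.w.val 5 ++ (List.replicate x.w.val 0 ++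
  (List.replicate x.c.val 6 ++ (List.replicate x.b.val 7 ++ List.replicate x.a.val 8))))))))

theorem evr (n k : ℕ) : CE.ev cg (List.replicate n k) = cg k ^ n := by simp [CE.ev]

theorem c50 : cg 5 * cg 0 = cg 0 * cg 5 := by
  simpa [CE.ev] using (ev_eq_iff (u := [5, 0]) (v := [0, 5])).2 (by decide +kernel)

theorem rel_Co : Rel (cg 8) (cg 7) (cg 6) (cg 0) (cg 1 * cg 1) (cg 2 * cg 2) (cg 3) (cg 4 * cg 4) (cg 5 * cg 0) := by
  have h := rels (R := [([8, 8, 8], []), ([7, 7, 7], []), ([6, 6, 6], []), ([0, 0, 0], []), ([1, 1, 1, 1, 1, 1], []),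
    ([2, 2, 2, 2, 2, 2], []), ([3, 3, 3], []), ([4, 4, 4, 4, 4, 4], []), ([5, 0, 5, 0, 5, 0], []), ([8, 7], [6, 7, 8]),
    ([8, 6], [6, 8]), ([7, 6], [6, 7])]) (by decide +kernel)
  have h1 := rels (R := [([0, 1, 1], [1, 1, 0]), ([0, 2, 2], [2, 2, 0]), ([0, 3], [3, 0]), ([0, 4, 4], [4, 4, 0]),
    ([0, 5, 0], [5, 0, 0]), ([1, 1, 2, 2], [2, 2, 1, 1]), ([1, 1, 3], [3, 1, 1]), ([1, 1, 4, 4], [4, 4, 1, 1]),
    ([1, 1, 5, 0], [5, 0, 1, 1]), ([2, 2, 3], [3, 2, 2]), ([2, 2, 4, 4], [4, 4, 2, 2]), ([2, 2, 5, 0], [5, 0, 2, 2]),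
    ([3, 4, 4], [4, 4, 3]), ([3, 5, 0], [5, 0, 3]), ([4, 4, 5, 0], [5, 0, 4, 4])]) (by decide +kernel)
  have ha := rels (R := [([8, 0], [0, 8]), ([8, 1, 1], [0, 0, 1, 1, 8]), ([8, 2, 2], [2, 2, 8]), ([8, 3], [0, 1, 1, 3, 8]),
    ([8, 4, 4], [2, 2, 4, 4, 8]), ([8, 5, 0], [5, 0, 8])]) (by decide +kernel)
  have hb := rels (R := [([7, 0], [0, 7]), ([7, 1, 1], [1, 1, 7]), ([7, 2, 2], [1, 1, 2, 2, 7]), ([7, 3], [3, 7]),
    ([7, 4, 4], [3, 3, 4, 4, 7]), ([7, 5, 0], [3, 4, 4, 5, 0, 7])]) (by decide +kernel)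
  have hc := rels (R := [([6, 0], [0, 6]), ([6, 1, 1], [1, 1, 6]), ([6, 2, 2], [0, 0, 2, 2, 6]), ([6, 3], [3, 6]),
    ([6, 4, 4], [1, 1, 4, 4, 6]), ([6, 5, 0], [0, 2, 2, 5, 0, 6])]) (by decide +kernel)
  simp only [List.forall_mem_cons, CE.ev, List.map_cons, List.map_nil, List.prod_cons, List.prod_nil, mul_one,
    List.not_mem_nil, IsEmpty.forall_iff, implies_true, and_true] at h h1 ha hb hc
  constructor <;> (try simp only [mul_assoc, List.pairwise_cons, List.forall_mem_cons, List.not_mem_nil, IsEmpty.forall_iff,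
    implies_true, and_true, List.Pairwise.nil]) <;> tauto

theorem exists_iota : ∃ ι : U →* C1, ∀ x, ι x = CE.ev cg (wl x) := by
  obtain ⟨ι, h1, h2, h3, h4, h5, h6, h7, h8, h9⟩ := rel_Co.exists_hom
  refine ⟨ι, fun x => ?_⟩
  rw [hom_eq_wd, h1, h2, h3, h4, h5, h6, h7, h8, h9, wd, wl, (Commute.mul_pow c50 _)]
  simp only [ev_append, evr, pow_mul, pow_two, mul_assoc]

theorem ind_Co {ι : U →* C1} (h : ∀ x, ι x = CE.ev cg (wl x)) {P : Subgroup U} [DecidablePred (· ∈ P)] {f : U → U}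
    (hf : IsHomOn P f) (n : List ℕ) {L : List U} (hP : ∀ M : Submonoid U, (∀ x ∈ L, x ∈ M) → ∀ x ∈ P, x ∈ M)
    (hL : L.all (fun x => decide (x ∈ P) && Nat.beq (evc (n ++ wl x)) (evc (wl (f x) ++ n))) = true) : Ind ι P f :=
  ind_of_gens' hf (CE.ev cg n) (fun x hx => by
    have := List.all_eq_true.1 hL x hx
    rw [Bool.and_eq_true, decide_eq_true_iff, ← ev_eq_iff, ev_append, ev_append, ← h, ← h] at this
    exact this) hP

/-- `Co₁` realises the parameter `2` -/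
theorem exists_md_Co1 : ∃ ι : U →* Cfsg.Spor.Co1, Md ι 2 ∧ Ind ι ⊤ dl := by
  obtain ⟨ι, h⟩ := exists_iota
  letI : DecidablePred (· ∈ (⊤ : Subgroup U)) := fun _ => isTrue trivial
  have hi : Function.Injective ι := inj_of' (by rw [h]; simpa [CE.ev, wl, xp, jj, val_one'] using cg0_ne)
  have ht : ∀ s t d, IsHomOn ⊤ (tor s t d) := fun s t d x _ y _ => tor_mul s t d x y
  refine ⟨ι, ⟨hi, fun e => ?_, ind_Co h (ht false true false) [10] gens_top (by decide +kernel),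
    ind_Co h (ht true false false) [9] gens_top (by decide +kernel), ind_Co h (hom_w1 0) [10, 12] gens_E1 (by decide +kernel),
    ind_Co h (hom_w2 2) [13] gens_E2 (by decide +kernel), ind_Co h hom_w3 [14] gens_E3 (by decide +kernel)⟩,
    ind_Co h (ht false false true) [11] gens_top (by decide +kernel)⟩
  have := ι.range.card_mul_index
  rw [← Nat.card_congr (MonoidHom.ofInjective hi).toEquiv, U.card, card_C1] at this
  omega

end CL.C1F
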